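import Cfsg.Agent.MK.S.Pc
import Mathlib.GroupTheory.Sylow
import Mathlib.GroupTheory.Abelianization.Defs
import Cfsg.Agent.FastGrp
import Cfsg.Agent.Prune
set_option linter.all false
prune_inst 0x7f00000000000000000000000000000000000000000000000000000000000000000000000000000000000000000000000000000000000000000000000000000000000000000000000000000000000000003fffffffffffffffffffffffffffbeffbdffffffff
open scoped Cfsg.Agent.FastGrp

-- part: MO/S/Pc
section
/-!
# MO, polycyclic certificates for an arbitrary prime (helper7, from `MK/S/Pc`)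

* `PC p g n m` : `g 0, …, g (n - 1)` is a polycyclic sequence with factors of order at most `p`, whose tail from `m` on
  generates the commutator subgroup; `PC.card_eq`, `PC.comm_eq`, `PC.index`, `PC.sylow`;
* `chk`, `pc_of_chk` : a certificate, for any sound test `eqv` of the equality of two words;
* `chn`, `card_ge` : a lower bound of the order by a chain of stabilizers;
* `nrm`, `nrm_mem`, `nrm_mod` : letters which normalise the group, and their action modulo the commutator subgroup;
* `card_normalizer_le` : `|N(Q)| ≤ (p - 1) |C(z)|` if `N(Q)` normalises `⟨z⟩`.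
-/

set_option autoImplicit false

namespace Cfsg.Agent.MO.S.Pc

open Subgroup
open Cfsg.Agent.MK.S.Pc (ev ev_nil ev_cons ev_append V mem_V V_le V_mono ev_mem conj_V inR inR_mem)
open scoped commutatorElement Pointwise

variable {Γ : Type*} [Group Γ] {g : ℕ → Γ} {p n m : ℕ}

/-- an extension by an element whose `p`-th power is in the subgroup -/
theorem card_ext [Finite Γ] (hp : 0 < p) {W H : Subgroup Γ} {a : Γ} (h1 : a ^ p ∈ W) (h2 : ∀ x ∈ W, a * x * a⁻¹ ∈ W)
    (h3 : H ≤ W ⊔ zpowers a) : Nat.card H ≤ p * Nat.card W := by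
  have h4 : zpowers a ≤ normalizer (W : Set Γ) := zpowers_le.2 (mem_normalizer_fintype h2)
  have h5 : ∀ x : H, ∃ y : Fin p × W, (y.2 : Γ) * a ^ (y.1 : ℕ) = x := fun x => by
    have h6 : (x : Γ) ∈ ((W ⊔ zpowers a : Subgroup Γ) : Set Γ) := h3 x.2
    rw [coe_mul_of_right_le_normalizer_left W _ h4] at h6
    obtain ⟨w, hw, b, hb, e⟩ := h6
    obtain ⟨k, rfl⟩ := (mem_powers_iff_mem_zpowers.2 hb :)
    refine ⟨⟨⟨k % p, Nat.mod_lt _ hp⟩, ⟨w * (a ^ p) ^ (k / p), mul_mem hw (pow_mem h1 _)⟩⟩, ?_⟩
    rw [← e]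
    change w * (a ^ p) ^ (k / p) * a ^ (k % p) = w * a ^ k
    rw [mul_assoc, ← pow_mul, ← pow_add, Nat.div_add_mod]
  choose f hf using h5
  have h6 := Nat.card_le_card_of_injective f fun x y e => Subtype.ext (by rw [← hf x, ← hf y, e])
  rwa [Nat.card_prod, Nat.card_fin] at h6

/-- a polycyclic sequence whose tail generates the commutator subgroup -/
structure PC (p : ℕ) (g : ℕ → Γ) (n m : ℕ) : Prop where
  pos : 0 < p
  le : m ≤ n
  pw : ∀ i < n, g i ^ p ∈ V g n (i + 1)
  cm : ∀ i j, i < j → j < n → ⁅g i, g j⁆ ∈ V g n (max m (i + 1))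
  dv : ∀ j, m ≤ j → j < n → g j ∈ ⁅V g n 0, V g n 0⁆ ⊔ V g n (j + 1)

namespace PC

variable (h : PC p g n m)
include h

theorem step [Finite Γ] {k : ℕ} (hk : k < n) : Nat.card (V g n k) ≤ p * Nat.card (V g n (k + 1)) := by
  refine card_ext h.pos (h.pw k hk) (fun x hx => conj_V (fun j h1 h2 => ?_) hx) (V_le fun i h3 h4 => ?_)
  · have e : g k * g j * (g k)⁻¹ = ⁅g k, g j⁆ * g j := by
      rw [commutatorElement_def]
      group
    rw [e]
    exact mul_mem (V_mono (le_max_right _ _) (h.cm k j h1 h2)) (mem_V h1 h2)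
  · rcases h3.eq_or_lt with rfl | h5
    · exact mem_sup_right (mem_zpowers _)
    · exact mem_sup_left (mem_V h5 h4)

theorem steps [Finite Γ] (k : ℕ) : ∀ d, k + d ≤ n → Nat.card (V g n k) ≤ p ^ d * Nat.card (V g n (k + d))
  | 0, _ => by simp
  | d + 1, hd => by
    refine (steps k d (by omega)).trans ?_
    rw [pow_succ, mul_assoc]
    exact Nat.mul_le_mul_left _ (h.step (by omega))

theorem card_le [Finite Γ] {k : ℕ} (hk : k ≤ n) : Nat.card (V g n k) ≤ p ^ (n - k) := by
  have h1 := h.steps k (n - k) (by omega)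
  have h2 : V g n (k + (n - k)) = ⊥ := le_bot_iff.1 (V_le fun i h1 h2 => by omega)
  rwa [h2, card_bot, mul_one] at h1

theorem norm [Finite Γ] : V g n 0 ≤ normalizer (V g n m : Set Γ) := by
  refine V_le fun i _ hi => mem_normalizer_fintype fun x hx => conj_V (fun j h1 h2 => ?_) hx
  by_cases hij : i < j
  · have e : g i * g j * (g i)⁻¹ = ⁅g i, g j⁆ * g j := by
      rw [commutatorElement_def]
      group
    rw [e]
    exact mul_mem (V_mono (le_max_left _ _) (h.cm i j hij h2)) (mem_V h1 h2)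
  · have h3 : g i ∈ V g n m := mem_V (by omega) hi
    exact mul_mem (mul_mem h3 (mem_V h1 h2)) (inv_mem h3)

theorem comm_le [Finite Γ] : ⁅V g n 0, V g n 0⁆ ≤ V g n m := by
  have h0 : ∀ a ∈ V g n 0, ∀ x ∈ V g n m, a * x * a⁻¹ ∈ V g n m := fun a ha x hx =>
    (mem_normalizer_iff.1 (h.norm ha) x).1 hx
  have key : ∀ z : Γ, (∀ i < n, ⁅g i, z⁆ ∈ V g n m) → ∀ x ∈ V g n 0, ⁅x, z⁆ ∈ V g n m := by
    intro z hz x hx
    induction hx using closure_induction with
    | mem x hx =>
      obtain ⟨i, hi, rfl⟩ := hx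
      exact hz i hi.2
    | one => rw [commutatorElement_one_left]; exact one_mem _
    | mul a b ha _ h1 h2 =>
      have e : ⁅a * b, z⁆ = a * ⁅b, z⁆ * a⁻¹ * ⁅a, z⁆ := by
        simp only [commutatorElement_def]
        group
      rw [e]
      exact mul_mem (h0 a ha _ h2) h1
    | inv a ha h1 =>
      have e : ⁅a⁻¹, z⁆ = a⁻¹ * ⁅a, z⁆⁻¹ * a⁻¹⁻¹ := by
        simp only [commutatorElement_def]
        group
      rw [e]
      exact h0 _ (inv_mem ha) _ (inv_mem h1)
  rw [commutator_le]
  intro x hx z hz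
  refine key z (fun i hi => ?_) x hx
  rw [← commutatorElement_inv]
  refine inv_mem (key _ (fun j hj => ?_) z hz)
  rcases lt_trichotomy j i with h1 | rfl | h1
  · exact V_mono (le_max_left _ _) (h.cm j i h1 hi)
  · rw [commutatorElement_self]
    exact one_mem _
  · rw [← commutatorElement_inv]
    exact inv_mem (V_mono (le_max_left _ _) (h.cm i j h1 hj))

theorem le_comm : ∀ d, d + m ≤ n → V g n (n - d) ≤ ⁅V g n 0, V g n 0⁆
  | 0, _ => V_le fun i h1 h2 => by omega
  | d + 1, hd => V_le fun i h1 h2 => by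
    have h3 := le_comm d (by omega)
    by_cases h4 : n - d ≤ i
    · exact h3 (mem_V h4 h2)
    · have h5 := h.dv i (by omega) h2
      rw [show i + 1 = n - d by omega, sup_of_le_left h3] at h5
      exact h5

/-- the commutator subgroup -/
theorem comm_eq [Finite Γ] : ⁅V g n 0, V g n 0⁆ = V g n m := by
  refine le_antisymm h.comm_le ?_
  have h1 := h.le_comm (n - m) (by have := h.le; omega)
  rwa [show n - (n - m) = m by have := h.le; omega] at h1

theorem card_eq [Finite Γ] (hc : p ^ n ≤ Nat.card (V g n 0)) {k : ℕ} (hk : k ≤ n) :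
    Nat.card (V g n k) = p ^ (n - k) := by
  refine le_antisymm (h.card_le hk) ?_
  have h1 := hc.trans (h.steps 0 k (by omega))
  rw [zero_add] at h1
  refine Nat.le_of_mul_le_mul_left ?_ (Nat.pow_pos (n := k) h.pos)
  rwa [← pow_add, Nat.add_sub_cancel' hk]

theorem card_zero [Finite Γ] (hc : p ^ n ≤ Nat.card (V g n 0)) : Nat.card (V g n 0) = p ^ n :=
  h.card_eq hc (Nat.zero_le n)

/-- **the order of the commutator factor group** -/
theorem index [Finite Γ] (hc : p ^ n ≤ Nat.card (V g n 0)) : (_root_.commutator (V g n 0)).index = p ^ m := by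
  have h1 : Nat.card (_root_.commutator (V g n 0)) = p ^ (n - m) := by
    rw [← h.card_eq hc h.le, ← h.comm_eq, ← map_subtype_commutator, card_map_of_injective (subtype_injective _)]
  have h2 := card_mul_index (_root_.commutator (V g n 0))
  rw [h1, h.card_zero hc] at h2
  refine Nat.eq_of_mul_eq_mul_left (Nat.pow_pos (n := n - m) h.pos) ?_
  rw [h2, ← pow_add, Nat.sub_add_cancel h.le]

theorem relIndex [Finite Γ] (hc : p ^ n ≤ Nat.card (V g n 0)) :
    (⁅V g n 0, V g n 0⁆ : Subgroup Γ).relIndex (V g n 0) = p ^ m := by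
  rw [← h.index hc, ← map_subtype_commutator, Subgroup.relIndex, subgroupOf,
    comap_map_eq_self_of_injective (subtype_injective _)]

/-- **the Sylow subgroup** -/
theorem sylow [Finite Γ] [Fact p.Prime] (hc : p ^ n ≤ Nat.card (V g n 0)) {o : ℕ} (hG : Nat.card Γ = p ^ n * o)
    (ho : ¬ p ∣ o) : ∃ Q : Sylow p Γ, (Q : Subgroup Γ) = V g n 0 := by
  have hp : p.Prime := Fact.out
  have h0 : o ≠ 0 := fun e => ho (e ▸ dvd_zero p)
  refine ⟨Sylow.ofCard (V g n 0) ?_, rfl⟩
  rw [h.card_zero hc, hG, Nat.factorization_mul (pow_ne_zero _ hp.ne_zero) h0, hp.factorization_pow, Finsupp.add_apply,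
    Finsupp.single_eq_same, Nat.factorization_eq_zero_of_not_dvd ho, add_zero]

/-- the group is generated by the first `m` members and the commutator subgroup -/
theorem gen [Finite Γ] {H : Subgroup Γ} (h1 : ∀ i < m, g i ∈ H) (h2 : ⁅V g n 0, V g n 0⁆ ≤ H) : V g n 0 ≤ H :=
  V_le fun i _ hi => (lt_or_ge i m).elim (h1 i) fun h3 => h2 (h.comm_eq ▸ mem_V h3 hi)

omit h in
/-- the last term -/
theorem last (k : ℕ) (hk : n = k + 1) : V g n k = zpowers (g k) :=
  le_antisymm (V_le fun i h1 h2 => by rw [show i = k by omega]; exact mem_zpowers _)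
    (zpowers_le.2 (mem_V le_rfl (by omega)))

end PC

/-! ### certificates -/

/-- the right hand sides of the relations -/
structure Cert where
  pw : List (List ℕ)
  cm : List (List (List ℕ))
  dv : List (List ℕ × List ℕ × List ℕ)

theorem ev_replicate (y : ℕ → Γ) (a : ℕ) : ∀ k, ev y (List.replicate k a) = y a ^ k
  | 0 => (pow_zero _).symm
  | k + 1 => by rw [List.replicate_succ, ev_cons, ev_replicate y a k, pow_succ']

/-- the relations for the member `i` : `i ^ p = pw`, `i j = cm j i`, `a b = i c b a` -/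
def chk1 (eqv : List ℕ → List ℕ → Bool) (p n m : ℕ) (c : Cert) (i : ℕ) : Bool :=
  (inR (i + 1) n (c.pw.getD i []) && eqv (List.replicate p i) (c.pw.getD i [])) &&
    ((List.range n).all fun j => Nat.ble j i || (inR (max m (i + 1)) n ((c.cm.getD i []).getD j []) &&
      eqv [i, j] ((c.cm.getD i []).getD j [] ++ [j, i]))) &&
    (Nat.blt i m || (inR 0 n (c.dv.getD i ([], [], [])).1 && inR 0 n (c.dv.getD i ([], [], [])).2.1 &&
      inR (i + 1) n (c.dv.getD i ([], [], [])).2.2 &&
      eqv ((c.dv.getD i ([], [], [])).1 ++ (c.dv.getD i ([], [], [])).2.1)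
        (i :: ((c.dv.getD i ([], [], [])).2.2 ++ ((c.dv.getD i ([], [], [])).2.1 ++
          (c.dv.getD i ([], [], [])).1)))))

/-- all relations -/
def chk (eqv : List ℕ → List ℕ → Bool) (p n m : ℕ) (c : Cert) : Bool :=
  Nat.blt 0 p && Nat.ble m n && (List.range n).all (chk1 eqv p n m c)

theorem pc_of_chk {y : ℕ → Γ} {eqv : List ℕ → List ℕ → Bool} (he : ∀ v w, eqv v w = true → ev y v = ev y w)
    {c : Cert} (h : chk eqv p n m c = true) : PC p y n m := by
  simp only [chk, chk1, Bool.and_eq_true, Bool.or_eq_true, List.all_eq_true, List.mem_range, Nat.ble_eq,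
    Nat.blt_eq] at h
  obtain ⟨⟨h0, hm⟩, h⟩ := h
  refine ⟨h0, hm, fun i hi => ?_, fun i j hij hj => ?_, fun j h1 hj => ?_⟩
  · obtain ⟨⟨⟨h1, h2⟩, -⟩, -⟩ := h i hi
    rw [← ev_replicate, he _ _ h2]
    exact inR_mem h1
  · obtain ⟨h1, h2⟩ := ((h i (hij.trans hj)).1.2 j hj).resolve_left (by omega)
    have h3 := he _ _ h2
    rw [ev_append, ev_cons, ev_cons, ev_cons, ev_cons, ev_nil, mul_one, mul_one] at h3
    rw [commutatorElement_def, h3, mul_assoc, mul_assoc, mul_assoc, mul_inv_cancel_left, mul_inv_cancel, mul_one]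
    exact inR_mem h1
  · obtain ⟨⟨⟨h2, h3⟩, h4⟩, h5⟩ := (h j hj).2.resolve_left (by omega)
    have h6 := he _ _ h5
    rw [ev_append, ev_cons, ev_append, ev_append] at h6
    generalize c.dv.getD j ([], [], []) = d at h2 h3 h4 h6
    have e : y j = ⁅ev y d.1, ev y d.2.1⁆ * (ev y d.2.2)⁻¹ := by
      rw [commutatorElement_def, h6]
      group
    rw [e]
    exact mul_mem (mem_sup_left (commutator_mem_commutator (inR_mem h2) (inR_mem h3)))
      (mem_sup_right (inv_mem (inR_mem h4)))

/-! ### a chain of stabilizers -/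

/-- the list increases strictly, above `a` -/
noncomputable def inc (L : List ℕ) : ℕ → Bool :=
  List.rec (motive := fun _ => ℕ → Bool) (fun _ => true) (fun b _ ih a => Nat.ble a b && ih (Nat.succ b)) L

theorem inc_spec : ∀ (L : List ℕ) (a : ℕ), inc L a = true → (∀ b ∈ L, a ≤ b) ∧ L.Nodup
  | [], _, _ => ⟨fun _ h => absurd h List.not_mem_nil, List.nodup_nil⟩
  | b :: L, a, h => by
    replace h : (Nat.ble a b && inc L (Nat.succ b)) = true := h
    rw [Bool.and_eq_true, Nat.ble_eq] at h
    obtain ⟨h1, h2⟩ := inc_spec L _ h.2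
    exact ⟨List.forall_mem_cons.2 ⟨h.1, fun c hc => h.1.trans (Nat.le_of_succ_le (h1 c hc))⟩,
      List.nodup_cons.2 ⟨fun hb => Nat.not_succ_le_self b (h1 b hb), h2⟩⟩

/-- For each level a point and words in the first `n` letters which fix the earlier points and move the point to
different places. -/
noncomputable def chn (im : List ℕ → ℕ → ℕ) (ok : ℕ → Bool) (n : ℕ) (lv : List (ℕ × List (List ℕ))) : List ℕ → Bool :=
  List.rec (motive := fun _ => List ℕ → Bool) (fun _ => true) (fun v _ ih bs =>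
    ok v.1 && (v.2.all fun w => inR 0 n w && bs.all fun b => Nat.beq (im w b) b) &&
      inc (v.2.map fun w => im w v.1) 0 && ih (v.1 :: bs)) lv

section chain

variable {Ω : Type*} [MulAction Γ Ω] {cd : Ω → ℕ} {im : List ℕ → ℕ → ℕ} {ok : ℕ → Bool}

/-- the elements which fix some points -/
def Fx (Γ : Type*) [Group Γ] [MulAction Γ Ω] (cd : Ω → ℕ) (bs : List ℕ) : Subgroup Γ where
  carrier := {a | ∀ x, cd x ∈ bs → a • x = x}
  one_mem' x _ := one_smul _ x
  mul_mem' ha hb x hx := by rw [mul_smul, hb x hx, ha x hx]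
  inv_mem' ha x hx := by rw [inv_smul_eq_iff, ha x hx]

theorem chn_spec [Finite Γ] (hi : Function.Injective cd) (hok : ∀ c, ok c = true → ∃ x, cd x = c)
    (him : ∀ w, inR 0 n w = true → ∀ x, cd (ev g w • x) = im w (cd x)) :
    ∀ (lv : List (ℕ × List (List ℕ))) (bs : List ℕ), chn im ok n lv bs = true →
      (lv.map fun v => v.2.length).prod ≤ Nat.card (V g n 0 ⊓ Fx Γ cd bs : Subgroup Γ)
  | [], _, _ => Nat.card_pos
  | v :: lv, bs, hc => by
    replace hc : (ok v.1 && (v.2.all fun w => inR 0 n w && bs.all fun b => Nat.beq (im w b) b) &&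
      inc (v.2.map fun w => im w v.1) 0 && chn im ok n lv (v.1 :: bs)) = true := hc
    simp only [Bool.and_eq_true, List.all_eq_true] at hc
    obtain ⟨⟨⟨h1, h2⟩, h3⟩, h4⟩ := hc
    obtain ⟨x, hx⟩ := hok _ h1
    have h5 := (inc_spec _ _ h3).2
    have h6 : ∀ w ∈ v.2, ev g w ∈ V g n 0 ⊓ Fx Γ cd bs := fun w hw =>
      ⟨inR_mem (h2 w hw).1, fun z hz => hi (by
        rw [him w (h2 w hw).1, Nat.eq_of_beq_eq_true ((h2 w hw).2 _ hz)])⟩
    have h7 : V g n 0 ⊓ Fx Γ cd (v.1 :: bs) ≤ V g n 0 ⊓ Fx Γ cd bs :=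
      inf_le_inf_left _ fun a ha z hz => ha z (List.mem_cons_of_mem _ hz)
    rw [List.map_cons, List.prod_cons]
    refine (Nat.mul_le_mul_left _ (chn_spec hi hok him lv _ h4)).trans ?_
    have h8 := Nat.card_le_card_of_injective
      (fun u : Fin v.2.length × (V g n 0 ⊓ Fx Γ cd (v.1 :: bs) : Subgroup Γ) =>
        (⟨ev g v.2[(u.1 : ℕ)] * u.2, mul_mem (h6 _ (List.getElem_mem _)) (h7 u.2.2)⟩ : (V g n 0 ⊓ Fx Γ cd bs : Subgroup Γ)))
      fun u u' e => by
        have e1 : ev g v.2[(u.1 : ℕ)] * (u.2 : Γ) = ev g v.2[(u'.1 : ℕ)] * u'.2 := congrArg Subtype.val e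
        have e2 := congrArg (fun a => cd (a • x)) e1
        simp only [mul_smul] at e2
        rw [u.2.2.2 x (hx ▸ List.mem_cons_self), u'.2.2.2 x (hx ▸ List.mem_cons_self),
          him _ (h2 _ (List.getElem_mem _)).1, him _ (h2 _ (List.getElem_mem _)).1, hx] at e2
        have e3 := List.inj_on_of_nodup_map h5 (List.getElem_mem _) (List.getElem_mem _) e2
        rw [e3] at e1
        exact Prod.ext (Fin.ext ((List.Nodup.of_map _ h5).getElem_inj_iff.1 e3)) (Subtype.ext (mul_left_cancel e1))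
    rwa [Nat.card_prod, Nat.card_fin] at h8

/-- **the lower bound** -/
theorem card_ge [Finite Γ] (hi : Function.Injective cd) (hok : ∀ c, ok c = true → ∃ x, cd x = c)
    (him : ∀ w, inR 0 n w = true → ∀ x, cd (ev g w • x) = im w (cd x)) {lv : List (ℕ × List (List ℕ))} {N : ℕ}
    (h : (chn im ok n lv [] && Nat.ble N (lv.map fun v => v.2.length).prod) = true) : N ≤ Nat.card (V g n 0) := by
  rw [Bool.and_eq_true, Nat.ble_eq] at h
  exact (h.2.trans (chn_spec hi hok him lv [] h.1)).trans (card_le_of_le inf_le_left)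

end chain

/-! ### the normaliser -/

/-- the word `0 ^ r 0 * 1 ^ r 1 * ⋯` -/
def pwd (r : List ℕ) : List ℕ := (List.range r.length).flatMap fun k => List.replicate (r.getD k 0) k

theorem ev_pwd (y : ℕ → Γ) (r : List ℕ) : ev y (pwd r) = ((List.range r.length).map fun k => y k ^ r.getD k 0).prod := by
  unfold pwd
  induction List.range r.length with
  | nil => rfl
  | cons a L ih => rw [List.flatMap_cons, ev_append, ih, ev_replicate, List.map_cons, List.prod_cons]

/-- the word `a` conjugates the member `j` to the normal form with the exponents `R j` -/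
def nrm (eqv : List ℕ → List ℕ → Bool) (n : ℕ) (a : List ℕ) (R : List (List ℕ)) : Bool :=
  (List.range n).all fun j => Nat.ble (R.getD j []).length n && eqv (a ++ [j]) (pwd (R.getD j []) ++ a)

theorem nrm_conj {eqv : List ℕ → List ℕ → Bool} (he : ∀ v w, eqv v w = true → ev g v = ev g w) {a : List ℕ}
    {R : List (List ℕ)} (h : nrm eqv n a R = true) {j : ℕ} (hj : j < n) :
    (R.getD j []).length ≤ n ∧ ev g a * g j * (ev g a)⁻¹ = ev g (pwd (R.getD j [])) := by
  have h1 := List.all_eq_true.1 h j (List.mem_range.2 hj)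
  rw [Bool.and_eq_true, Nat.ble_eq] at h1
  have h2 := he _ _ h1.2
  rw [ev_append, ev_append, ev_cons, ev_nil, mul_one] at h2
  exact ⟨h1.1, by rw [h2, mul_inv_cancel_right]⟩

theorem pwd_mem {r : List ℕ} (hr : r.length ≤ n) : ev g (pwd r) ∈ V g n 0 :=
  ev_mem fun i hi => by
    obtain ⟨k, hk, h1⟩ := List.mem_flatMap.1 hi
    rw [List.eq_of_mem_replicate h1]
    exact mem_V (Nat.zero_le _) ((List.mem_range.1 hk).trans_le hr)

theorem nrm_mem [Finite Γ] {eqv : List ℕ → List ℕ → Bool} (he : ∀ v w, eqv v w = true → ev g v = ev g w) {a : List ℕ}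
    {R : List (List ℕ)} (h : nrm eqv n a R = true) : ev g a ∈ normalizer (V g n 0 : Set Γ) :=
  mem_normalizer_fintype fun _ hx => conj_V (fun _ _ hj => (nrm_conj he h hj).2 ▸ pwd_mem (nrm_conj he h hj).1) hx

theorem getD_zero {r : List ℕ} {k : ℕ} (h : r.length ≤ k) : r.getD k 0 = 0 := by
  rw [List.getD_eq_getElem?_getD, List.getElem?_eq_none h, Option.getD_none]

/-- a normal form modulo the tail -/
theorem pwd_mod {r : List ℕ} (hr : r.length ≤ n) (m : ℕ) :
    (((List.range m).map fun k => g k ^ r.getD k 0).prod)⁻¹ * ev g (pwd r) ∈ V g n m := by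
  have h1 : ∀ d, (((List.range m).map fun k => g k ^ r.getD k 0).prod)⁻¹ *
      ((List.range (m + d)).map fun k => g k ^ r.getD k 0).prod ∈ V g n m := fun d => by
    induction d with
    | zero => rw [add_zero, inv_mul_cancel]; exact one_mem _
    | succ d ih =>
      rw [← add_assoc, List.range_succ, List.map_append, List.prod_append, ← mul_assoc, List.map_singleton,
        List.prod_singleton]
      refine mul_mem ih ?_
      by_cases h : m + d < n
      · exact pow_mem (mem_V (Nat.le_add_right _ _) h) _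
      · rw [getD_zero (by omega), pow_zero]
        exact one_mem _
  have h2 : ∀ d, ((List.range (r.length + d)).map fun k => g k ^ r.getD k 0).prod =
      ((List.range r.length).map fun k => g k ^ r.getD k 0).prod := fun d => by
    induction d with
    | zero => rfl
    | succ d ih =>
      rw [← add_assoc, List.range_succ, List.map_append, List.prod_append, ih, List.map_singleton, List.prod_singleton,
        getD_zero (by omega), pow_zero, mul_one]
  rw [ev_pwd, ← h2 m, add_comm]
  exact h1 _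

/-- the action modulo the tail -/
theorem nrm_mod {eqv : List ℕ → List ℕ → Bool} (he : ∀ v w, eqv v w = true → ev g v = ev g w) {a : List ℕ}
    {R : List (List ℕ)} (h : nrm eqv n a R = true) (m : ℕ) {j : ℕ} (hj : j < n) :
    (((List.range m).map fun k => g k ^ (R.getD j []).getD k 0).prod)⁻¹ * (ev g a * g j * (ev g a)⁻¹) ∈ V g n m := by
  rw [(nrm_conj he h hj).2]
  exact pwd_mod (nrm_conj he h hj).1 m

/-- a group which normalises a subgroup of prime order -/
theorem card_le_of_zpowers [Finite Γ] [Fact p.Prime] {z : Γ} (hz : orderOf z = p) {N : Subgroup Γ}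
    (hN : N ≤ normalizer (zpowers z : Set Γ)) : Nat.card N ≤ (p - 1) * Nat.card (centralizer ({z} : Set Γ)) := by
  have hp : p.Prime := Fact.out
  refine (card_le_of_le hN).trans ?_
  have h1 : Nat.card (zpowers z) = p := (Nat.card_zpowers z).trans hz
  have : IsCyclic (zpowers z) := isCyclic_of_prime_card h1
  have h2 := (zpowers z).normalizerMonoidHom.ker.card_mul_index
  have h3 : (zpowers z).normalizerMonoidHom.ker.index ≤ p - 1 := by
    rw [index_ker, ← Nat.totient_prime hp, ← h1, ← IsCyclic.card_mulAut]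
    exact card_le_card_group _
  have h4 : Nat.card (zpowers z).normalizerMonoidHom.ker ≤ Nat.card (centralizer ({z} : Set Γ)) := by
    rw [normalizerMonoidHom_ker, ← card_map_of_injective (subtype_injective _), subgroupOf_map_subtype]
    exact card_le_of_le (inf_le_left.trans (centralizer_le (Set.singleton_subset_iff.2 (mem_zpowers z))))
  rw [← h2, mul_comm]
  exact Nat.mul_le_mul h3 h4

/-- the normaliser of `Q` normalises the commutator subgroup -/
theorem normalizer_le_comm (Q : Subgroup Γ) : normalizer (Q : Set Γ) ≤ normalizer ((⁅Q, Q⁆ : Subgroup Γ) : Set Γ) := by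
  intro a ha
  have h1 := mem_normalizer_iff_map_conj_eq.1 ha
  rw [mem_normalizer_iff_map_conj_eq, map_commutator, h1]

/-- the normaliser of `Q` normalises the centre of `Q` -/
theorem normalizer_le_cen (Q : Subgroup Γ) :
    normalizer (Q : Set Γ) ≤ normalizer ((Q ⊓ centralizer (Q : Set Γ) : Subgroup Γ) : Set Γ) := by
  have key : ∀ a ∈ normalizer (Q : Set Γ), ∀ x ∈ Q ⊓ centralizer (Q : Set Γ),
      a * x * a⁻¹ ∈ Q ⊓ centralizer (Q : Set Γ) := fun a ha x hx =>
    ⟨(mem_normalizer_iff.1 ha x).1 hx.1, mem_centralizer_iff.2 fun u hu => by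
      have h1 := mem_centralizer_iff.1 hx.2 _ ((mem_normalizer_iff.1 (inv_mem ha) u).1 hu)
      calc u * (a * x * a⁻¹) = a * (a⁻¹ * u * a⁻¹⁻¹ * x) * a⁻¹ := by group
        _ = a * x * a⁻¹ * u := by rw [h1]; group⟩
  intro a ha
  refine mem_normalizer_iff.2 fun x => ⟨key a ha x, fun hx => ?_⟩
  have h1 := key _ (inv_mem ha) _ hx
  rwa [show a⁻¹ * (a * x * a⁻¹) * a⁻¹⁻¹ = x by group] at h1

end Cfsg.Agent.MO.S.Pc
end

-- part: MO/S/Pc2
section
/-!
# MO, polycyclic certificates, second part (helper7)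

* `imw`, `eqb`, `imw_spec`, `eqb_sound` : words act on coded points; the test of equality on a base;
* `expC`, `exp_of_chk` : the commutator factor group has the exponent `p`;
* `lowC`, `low_of_chk`, `norm_low`, `cen_of_chk` : steps of the lower central series;
* `order_last`, `card_norm_le` : the last member `z`, and `|N(Q)| ≤ (p - 1) |C(z)|`;
* `notN`, `not_mem_of_chk` : an element which does not normalise the group;
* `card_le_of_cong` : the index of `N(Q)` in an overgroup from the theorem of Sylow.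
-/

set_option autoImplicit false

namespace Cfsg.Agent.MO.S.Pc

open Subgroup
open Cfsg.Agent.MK.S.Pc (ev ev_nil ev_cons ev_append V mem_V V_le V_mono ev_mem conj_V inR inR_mem)
open scoped commutatorElement

variable {Γ : Type*} [Group Γ] {g : ℕ → Γ} {p n m : ℕ}

/-! ### words and points -/

/-- evaluate, then go on -/
noncomputable def frc (x : ℕ) (f : ℕ → ℕ) : ℕ := Nat.rec (f 0) (fun k _ => f (Nat.succ k)) x

theorem frc_eq (x : ℕ) (f : ℕ → ℕ) : frc x f = f x := by cases x <;> rfl

/-- the image of a point under a word -/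
noncomputable def imw (f : ℕ → ℕ → ℕ) (w : List ℕ) : ℕ → ℕ :=
  List.rec (fun c => c) (fun a _ ih c => frc (ih c) (f a)) w

theorem imw_cons (f : ℕ → ℕ → ℕ) (a : ℕ) (w : List ℕ) (c : ℕ) : imw f (a :: w) c = f a (imw f w c) := frc_eq _ _

/-- two words agree on a base -/
noncomputable def eqb (f : ℕ → ℕ → ℕ) (bs : List ℕ) (v w : List ℕ) : Bool :=
  bs.all fun b => Nat.beq (imw f v b) (imw f w b)

section act

variable {Ω : Type*} [MulAction Γ Ω] {cd : Ω → ℕ} {f : ℕ → ℕ → ℕ}

theorem imw_spec (hf : ∀ a x, cd (g a • x) = f a (cd x)) : ∀ (w : List ℕ) (x : Ω), cd (ev g w • x) = imw f w (cd x)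
  | [], x => by rw [ev_nil, one_smul]; rfl
  | a :: w, x => by rw [ev_cons, mul_smul, hf, imw_spec hf w, imw_cons]

theorem eqb_sound (hi : Function.Injective cd) (hf : ∀ a x, cd (g a • x) = f a (cd x)) {bs : List ℕ}
    (hb : ∀ a : Γ, (∀ x, cd x ∈ bs → a • x = x) → a = 1) (v w : List ℕ) (h : eqb f bs v w = true) : ev g v = ev g w := by
  refine (inv_mul_eq_one.1 (hb _ fun x hx => ?_)).symm
  rw [mul_smul, inv_smul_eq_iff]
  exact hi (by rw [imw_spec hf, imw_spec hf, Nat.eq_of_beq_eq_true (List.all_eq_true.1 h _ hx)])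

/-- `O` is invariant; `c x` is in `O`, and `c q x` is not -/
noncomputable def notN (f : ℕ → ℕ → ℕ) (n : ℕ) (O c q : List ℕ) (x : ℕ) : Bool :=
  ((List.range n).all fun i => O.all fun s => O.any (Nat.beq (f i s))) && inR 0 n q && O.any (Nat.beq (imw f c x)) &&
    !O.any (Nat.beq (imw f (c ++ q) x))

theorem any_beq {O : List ℕ} {s : ℕ} : O.any (Nat.beq s) = true ↔ s ∈ O := by
  simp only [List.any_eq_true, Nat.beq_eq, exists_eq_right']

/-- **an element which does not normalise the group** -/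
theorem not_mem_of_chk [Finite Γ] (hf : ∀ a x, cd (g a • x) = f a (cd x)) {O c q : List ℕ} (x : Ω)
    (h : notN f n O c q (cd x) = true) : ev g c ∉ normalizer (V g n 0 : Set Γ) := fun hc => by
  simp only [notN, Bool.and_eq_true, List.all_eq_true, List.mem_range, any_beq, Bool.not_eq_true', ← Bool.not_eq_true] at h
  obtain ⟨⟨⟨h1, h2⟩, h3⟩, h4⟩ := h
  let K : Subgroup Γ :=
    { carrier := {a | ∀ y, cd y ∈ O → cd (a • y) ∈ O}
      one_mem' := fun y hy => by rwa [one_smul]
      mul_mem' := fun ha hb y hy => by rw [mul_smul]; exact ha _ (hb y hy)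
      inv_mem' := fun {a} ha => by
        have h5 : ∀ k : ℕ, ∀ y, cd y ∈ O → cd (a ^ k • y) ∈ O := fun k => by
          induction k with
          | zero => exact fun y hy => by rwa [pow_zero, one_smul]
          | succ k ih => exact fun y hy => by rw [pow_succ, mul_smul]; exact ih _ (ha y hy)
        rw [← one_mul a⁻¹, ← pow_orderOf_eq_one a, ← Nat.sub_add_cancel (orderOf_pos a), pow_succ, mul_inv_cancel_right]
        exact h5 _ }
  have h5 : V g n 0 ≤ K := V_le fun i _ hi y hy => by rw [hf]; exact h1 i hi _ hy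
  have h6 := h5 ((mem_normalizer_iff.1 hc _).1 (inR_mem h2)) (ev g c • x) (by rwa [imw_spec hf])
  rw [← mul_smul, inv_mul_cancel_right, ← ev_append, imw_spec hf] at h6
  exact h4 h6

end act

/-! ### the relations -/

section rel

variable {eqv : List ℕ → List ℕ → Bool} {c : Cert} (he : ∀ v w, eqv v w = true → ev g v = ev g w)
  (h : chk eqv p n m c = true)
include he h

theorem chk_pw {i : ℕ} (hi : i < n) : g i ^ p = ev g (c.pw.getD i []) := by
  simp only [chk, chk1, Bool.and_eq_true, List.all_eq_true, List.mem_range] at h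
  rw [← ev_replicate, he _ _ (h.2 i hi).1.1.2]

theorem chk_cm {i j : ℕ} (hij : i < j) (hj : j < n) : ⁅g i, g j⁆ = ev g ((c.cm.getD i []).getD j []) := by
  simp only [chk, chk1, Bool.and_eq_true, Bool.or_eq_true, List.all_eq_true, List.mem_range, Nat.ble_eq] at h
  have h3 := he _ _ (((h.2 i (hij.trans hj)).1.2 j hj).resolve_left (by omega)).2
  rw [ev_append, ev_cons, ev_cons, ev_cons, ev_cons, ev_nil, mul_one, mul_one] at h3
  rw [commutatorElement_def, h3, mul_assoc, mul_assoc, mul_assoc, mul_inv_cancel_left, mul_inv_cancel, mul_one]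

theorem chk_dv {j : ℕ} (h1 : m ≤ j) (hj : j < n) : ev g (c.dv.getD j ([], [], [])).1 ∈ V g n 0 ∧
    g j * ev g (c.dv.getD j ([], [], [])).2.2 = ⁅ev g (c.dv.getD j ([], [], [])).1, ev g (c.dv.getD j ([], [], [])).2.1⁆ ∧
    ev g (c.dv.getD j ([], [], [])).2.2 ∈ V g n (j + 1) := by
  simp only [chk, chk1, Bool.and_eq_true, Bool.or_eq_true, List.all_eq_true, List.mem_range, Nat.blt_eq] at h
  obtain ⟨⟨⟨h2, -⟩, h4⟩, h5⟩ := (h.2 j hj).2.resolve_left (by omega)
  have h6 := he _ _ h5
  rw [ev_append, ev_cons, ev_append, ev_append] at h6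
  refine ⟨inR_mem h2, ?_, inR_mem h4⟩
  rw [commutatorElement_def, h6]
  group

omit he h in
/-- the powers of the first members are in the tail -/
def expC (n m : ℕ) (c : Cert) : Bool := (List.range m).all fun i => inR m n (c.pw.getD i [])

/-- **the commutator factor group has the exponent `p`** -/
theorem exp_of_chk [Finite Γ] (h' : expC n m c = true) : ∀ q ∈ V g n 0, q ^ p ∈ ⁅V g n 0, V g n 0⁆ := by
  have hp := pc_of_chk he h
  have h1 : ∀ x : V g n 0, x ∈ ((powMonoidHom p).comp (Abelianization.of (G := V g n 0))).ker ↔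
      (x : Γ) ^ p ∈ ⁅V g n 0, V g n 0⁆ := fun x => by
    rw [MonoidHom.mem_ker, MonoidHom.comp_apply, powMonoidHom_apply, ← map_pow, ← MonoidHom.mem_ker, Abelianization.ker_of,
      ← map_subtype_commutator, ← mem_map_iff_mem (subtype_injective _)]
    rfl
  intro q hq
  obtain ⟨x, hx, rfl⟩ := V_le (H := ((powMonoidHom p).comp (Abelianization.of (G := V g n 0))).ker.map (V g n 0).subtype)
    (fun i _ hi => ⟨⟨g i, mem_V (Nat.zero_le _) hi⟩, (h1 _).2 (by
      rw [hp.comm_eq]
      rcases lt_or_ge i m with h2 | h2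
      · change g i ^ p ∈ _
        rw [chk_pw he h hi]
        exact inR_mem (List.all_eq_true.1 h' i (List.mem_range.2 h2))
      · exact pow_mem (mem_V h2 hi) p), rfl⟩) hq
  exact (h1 x).1 hx

omit he h in
/-- `⁅V 0, V k⁆ = V l` -/
def lowC (n m k l : ℕ) (c : Cert) : Bool :=
  Nat.ble k l && Nat.ble m l && (List.range n).all fun j =>
    (Nat.blt j k || (List.range j).all fun i => inR l n ((c.cm.getD i []).getD j [])) &&
      (Nat.blt j l || inR k n (c.dv.getD j ([], [], [])).2.1)

omit he h in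
theorem comm_le_of [Finite Γ] {k l : ℕ} (hkl : k ≤ l) (H : ∀ i < n, ∀ j, k ≤ j → j < n → ⁅g i, g j⁆ ∈ V g n l) :
    ⁅V g n 0, V g n k⁆ ≤ V g n l := by
  have h0 : V g n 0 ≤ normalizer (V g n l : Set Γ) :=
    V_le fun i _ hi => mem_normalizer_fintype fun x hx => conj_V (fun j h1 h2 => by
      rw [show g i * g j * (g i)⁻¹ = ⁅g i, g j⁆ * g j by rw [commutatorElement_def]; group]
      exact mul_mem (H i hi j (hkl.trans h1) h2) (mem_V h1 h2)) hx
  have key : ∀ (r : ℕ) (z : Γ), (∀ i, r ≤ i → i < n → ⁅g i, z⁆ ∈ V g n l) → ∀ x ∈ V g n r, ⁅x, z⁆ ∈ V g n l := by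
    intro r z hz x hx
    induction hx using closure_induction with
    | mem x hx =>
      obtain ⟨i, hi, rfl⟩ := hx
      exact hz i hi.1 hi.2
    | one => rw [commutatorElement_one_left]; exact one_mem _
    | mul a b ha _ h1 h2 =>
      rw [show ⁅a * b, z⁆ = a * ⁅b, z⁆ * a⁻¹ * ⁅a, z⁆ by simp only [commutatorElement_def]; group]
      exact mul_mem ((mem_normalizer_iff.1 (h0 (V_mono (Nat.zero_le r) ha)) _).1 h2) h1
    | inv a ha h1 =>
      rw [show ⁅a⁻¹, z⁆ = a⁻¹ * ⁅a, z⁆⁻¹ * a⁻¹⁻¹ by simp only [commutatorElement_def]; group]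
      exact (mem_normalizer_iff.1 (h0 (V_mono (Nat.zero_le r) (inv_mem ha))) _).1 (inv_mem h1)
  refine commutator_le.2 fun x hx z hz => key 0 z (fun i _ hi => ?_) x hx
  rw [← commutatorElement_inv]
  refine inv_mem (key k _ (fun j h1 hj => ?_) z hz)
  rw [← commutatorElement_inv]
  exact inv_mem (H i hi j h1 hj)

/-- **a step of the lower central series** -/
theorem low_of_chk [Finite Γ] {k l : ℕ} (h' : lowC n m k l c = true) : ⁅V g n 0, V g n k⁆ = V g n l := by
  simp only [lowC, Bool.and_eq_true, Bool.or_eq_true, List.all_eq_true, List.mem_range, Nat.ble_eq, Nat.blt_eq] at h'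
  obtain ⟨⟨h1, h2⟩, h3⟩ := h'
  have h4 : ∀ i j, i < j → k ≤ j → j < n → ⁅g i, g j⁆ ∈ V g n l := fun i j hij hk hj => by
    rw [chk_cm he h hij hj]
    exact inR_mem ((h3 j hj).1.resolve_left (by omega) i hij)
  refine le_antisymm (comm_le_of h1 fun i hi j hk hj => ?_) ?_
  · rcases lt_trichotomy i j with h5 | rfl | h5
    · exact h4 i j h5 hk hj
    · rw [commutatorElement_self]
      exact one_mem _
    · rw [← commutatorElement_inv]
      exact inv_mem (h4 j i h5 (by omega) hi)
  · have h5 : ∀ d, ∀ j, l ≤ j → n ≤ j + d → V g n j ≤ ⁅V g n 0, V g n k⁆ := fun d => by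
      induction d with
      | zero => exact fun j _ hj => V_le fun i _ _ => by omega
      | succ d ih =>
        refine fun j hl hj => V_le fun i h6 h7 => ?_
        obtain ⟨h8, h9, h10⟩ := chk_dv he h (j := i) (by omega) h7
        rw [eq_mul_inv_of_mul_eq h9]
        exact mul_mem (commutator_mem_commutator h8 (inR_mem ((h3 i h7).2.resolve_left (by omega))))
          (inv_mem (ih (i + 1) (by omega) (by omega) h10))
    exact h5 n l le_rfl (by omega)

omit he h in
theorem normalizer_comm {A B : Subgroup Γ} {a : Γ} (ha : a ∈ normalizer (A : Set Γ)) (hb : a ∈ normalizer (B : Set Γ)) :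
    a ∈ normalizer ((⁅A, B⁆ : Subgroup Γ) : Set Γ) := by
  rw [mem_normalizer_iff_map_conj_eq] at ha hb ⊢
  rw [map_commutator, ha, hb]

/-- the normaliser normalises the terms of the lower central series -/
theorem norm_low [Finite Γ] {k l : ℕ} (h' : lowC n m k l c = true)
    (hk : normalizer (V g n 0 : Set Γ) ≤ normalizer (V g n k : Set Γ)) :
    normalizer (V g n 0 : Set Γ) ≤ normalizer (V g n l : Set Γ) := fun _ ha =>
  low_of_chk he h h' ▸ normalizer_comm ha (hk ha)

theorem norm_comm [Finite Γ] : normalizer (V g n 0 : Set Γ) ≤ normalizer (V g n m : Set Γ) :=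
  (pc_of_chk he h).comm_eq ▸ normalizer_le_comm _

/-- a central member -/
theorem cen_of_chk [Finite Γ] {k : ℕ} (hk : k < n) (h' : lowC n m k n c = true) : V g n 0 ≤ centralizer {g k} := by
  have h1 := low_of_chk he h h'
  rw [show V g n n = ⊥ from le_bot_iff.1 (V_le fun i h1 h2 => by omega), commutator_eq_bot_iff_le_centralizer] at h1
  exact h1.trans (centralizer_le (Set.singleton_subset_iff.2 (mem_V le_rfl hk)))

end rel

/-- the order of the last member -/
theorem order_last [Finite Γ] {k : ℕ} (h : PC p g (k + 1) m) (hc : p ^ (k + 1) ≤ Nat.card (V g (k + 1) 0)) :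
    orderOf (g k) = p := by
  rw [← Nat.card_zpowers, ← PC.last (n := k + 1) k rfl, h.card_eq hc k.le_succ, Nat.add_sub_cancel_left, pow_one]

/-- **the bound from the centraliser of the last member** -/
theorem card_norm_le [Finite Γ] [Fact p.Prime] {k : ℕ} (h : PC p g (k + 1) m) (hc : p ^ (k + 1) ≤ Nat.card (V g (k + 1) 0))
    (hN : normalizer (V g (k + 1) 0 : Set Γ) ≤ normalizer (V g (k + 1) k : Set Γ)) :
    Nat.card (normalizer (V g (k + 1) 0 : Set Γ)) ≤ (p - 1) * Nat.card (centralizer ({g k} : Set Γ)) :=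
  card_le_of_zpowers (order_last h hc) (PC.last (g := g) (n := k + 1) k rfl ▸ hN)

/-- the order of the normaliser of a subgroup of prime order -/
theorem card_zpowers_dvd [Finite Γ] [Fact p.Prime] {z : Γ} (hz : orderOf z = p) :
    Nat.card (normalizer (zpowers z : Set Γ)) ∣ (p - 1) * Nat.card (centralizer ({z} : Set Γ)) := by
  have hp : p.Prime := Fact.out
  have h1 : Nat.card (zpowers z) = p := (Nat.card_zpowers z).trans hz
  have : IsCyclic (zpowers z) := isCyclic_of_prime_card h1
  rw [← (zpowers z).normalizerMonoidHom.ker.card_mul_index, mul_comm]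
  refine Nat.mul_dvd_mul ?_ ?_
  · rw [index_ker, ← Nat.totient_prime hp, ← h1, ← IsCyclic.card_mulAut]
    exact card_subgroup_dvd_card _
  · rw [normalizerMonoidHom_ker, ← card_map_of_injective (subtype_injective _), subgroupOf_map_subtype]
    exact card_dvd_of_le (inf_le_left.trans (centralizer_le (Set.singleton_subset_iff.2 (mem_zpowers z))))

theorem mem_normalizer_zpowers {z a : Γ} (h : a * z = z * a) : a ∈ normalizer (zpowers z : Set Γ) :=
  centralizer_le_normalizer _ (mem_centralizer_iff.2 fun _ ⟨k, hk⟩ => hk ▸ ((show Commute a z from h).zpow_right k).eq.symm)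

/-- **the index of the normaliser in an overgroup** -/
theorem relIndex_modEq [Finite Γ] [Fact p.Prime] (Q : Sylow p Γ) {K : Subgroup Γ}
    (hK : normalizer ((Q : Subgroup Γ) : Set Γ) ≤ K) : (normalizer ((Q : Subgroup Γ) : Set Γ)).relIndex K ≡ 1 [MOD p] := by
  have h1 : (Q : Subgroup Γ) ≤ K := le_normalizer.trans hK
  have h2 := card_sylow_modEq_one p K
  rw [(Q.subtype h1).card_eq_index_normalizer] at h2
  rwa [relIndex, subgroupOf_normalizer_eq h1]

theorem le_relIndex [Finite Γ] {N K : Subgroup Γ} {r : ℕ} (hr : r.Prime) {a : Γ} (ha : a ∈ K) (hn : a ∉ N) (h1 : a ^ r = 1) :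
    r ≤ N.relIndex K := by
  have key : ∀ i j, i < j → j < r → (a ^ i)⁻¹ * a ^ j ∉ N := fun i j hij hj h => by
    obtain ⟨d, rfl⟩ := Nat.exists_eq_add_of_lt hij
    rw [add_assoc, pow_add, inv_mul_cancel_left] at h
    obtain ⟨k, hk⟩ := exists_pow_eq_self_of_coprime (x := a) (n := d + 1)
      (((Nat.coprime_of_lt_prime d.succ_ne_zero (by omega) hr).symm).of_dvd_right (orderOf_dvd_of_pow_eq_one h1))
    exact hn (hk ▸ pow_mem h k)
  have h2 := Nat.card_le_card_of_injective (fun i : Fin r => ((⟨a ^ (i : ℕ), pow_mem ha i⟩ : K) : K ⧸ N.subgroupOf K))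
    fun i j e => by
      rcases lt_trichotomy (i : ℕ) j with h | h | h
      · exact absurd (QuotientGroup.eq.1 e) (key _ _ h j.2)
      · exact Fin.ext h
      · exact absurd (QuotientGroup.eq.1 e.symm) (key _ _ h i.2)
  rwa [Nat.card_fin] at h2

/-- **the bound from an overgroup**: `a` is an element of prime order `r` of `K` outside `N(Q)` -/
theorem card_le_of_cong [Finite Γ] [Fact p.Prime] (Q : Sylow p Γ) {K : Subgroup Γ}
    (hK : normalizer ((Q : Subgroup Γ) : Set Γ) ≤ K) {r B s : ℕ} (hr : r.Prime) {a : Γ} (ha : a ∈ K)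
    (hn : a ∉ normalizer ((Q : Subgroup Γ) : Set Γ)) (h1 : a ^ r = 1) (hB : Nat.card K ∣ B)
    (hs : ∀ t < s, r ≤ t → t % p = 1 % p → ¬ t ∣ B) : s * Nat.card (normalizer ((Q : Subgroup Γ) : Set Γ)) ≤ Nat.card K := by
  have h2 := ((normalizer ((Q : Subgroup Γ) : Set Γ)).subgroupOf K).card_mul_index
  rw [Nat.card_congr (subgroupOfEquivOfLe hK).toEquiv] at h2
  rw [← h2, mul_comm]
  exact Nat.mul_le_mul_left _ (le_of_not_gt fun h => hs _ h (le_relIndex hr ha hn h1) (relIndex_modEq Q hK)
    ((Dvd.intro_left _ h2).trans hB))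

end Cfsg.Agent.MO.S.Pc
end

private theorem dce_b99e3238417c : _root_.True := by
  try have : _root_.True := by simp only [_root_.Cfsg.Agent.MO.S.Pc.chk.eq_1]
  try have : _root_.True := by simp only [_root_.Cfsg.Agent.MO.S.Pc.lowC.eq_1]
  try have : _root_.True := by simp only [_root_.Cfsg.Agent.MO.S.Pc.chk1.eq_1]
  try have : _root_.True := by simp only [_root_.Cfsg.Agent.MO.S.Pc.notN.eq_1]
  exact _root_.True.intro
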